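import Cfsg.Agent.H780.P9.Gauge

/-!
# S5925, box H: the equations C3 entrywise (helper780)
-/

set_option autoImplicit false
set_option linter.style.longLine false

namespace Cfsg.Agent.H780.P9
open Matrix Cfsg.Agent.H879.E83

section
variable {F : Type*} [Field F] {g : F} {q : Mt F}

/-- `-(Mh q * V0 D * q)` for `D = e_d` -/
def AA (q : Mt F) (d a b : Fin 5) : F := Mh q a d * q d b - Mh q a (d + 2) * q (d + 2) b

theorem V0_single (d a : Fin 5) : V0 (Pi.single d (1 : F)) a a = (if a = d + 2 then 1 else 0) - (if a = d then 1 else 0) := by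
  have e : ∀ a d : Fin 5, (a - 2 = d) ↔ (a = d + 2) := by decide
  rw [V0, Matrix.diagonal_apply_eq, Pi.single_apply, Pi.single_apply]
  simp only [e]

theorem V1_single (d a : Fin 5) : V1 (Pi.single d (1 : F)) a a = (if a = d then 1 else 0) - (if a = d + 1 then 1 else 0) := by
  have e : ∀ a d : Fin 5, (a - 1 = d) ↔ (a = d + 1) := by decide
  rw [V1, Matrix.diagonal_apply_eq, Pi.single_apply, Pi.single_apply]
  simp only [e]

theorem TA_single (q : Mt F) (d a b : Fin 5) : (-(Mh q * V0 (Pi.single d (1 : F)) * q)) a b = AA q d a b := by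
  rw [Matrix.neg_apply, Matrix.mul_apply]
  have e1 : ∀ c, (Mh q * V0 (Pi.single d (1 : F))) a c * q c b
      = (if c = d + 2 then Mh q a c * q c b else 0) - (if c = d then Mh q a c * q c b else 0) := by
    intro c
    have e2 : (Mh q * V0 (Pi.single d (1 : F))) a c = Mh q a c * V0 (Pi.single d (1 : F)) c c := by
      rw [V0, Matrix.mul_diagonal, Matrix.diagonal_apply_eq]
    rw [e2, V0_single]
    split_ifs <;> ring
  simp only [e1, Finset.sum_sub_distrib, Finset.sum_ite_eq', Finset.mem_univ, if_true, AA]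
  ring

theorem two_mul_succ (d : Fin 5) : (2 : Fin 5) * (d + 1) = 2 * d + 2 := by revert d; decide

theorem TB_single (h3 : (3 : F) = 0) (q : Mt F) (d a b : Fin 5) :
    (-(Q2 (Mh q) * V1 (Pi.single d (1 : F)) * Q2 q)) a b = -(Sv (2 * a) * Sv (2 * b) * AA q (2 * d) (2 * a) (2 * b) ^ 3) := by
  rw [Matrix.neg_apply, Matrix.mul_apply]
  have e1 : ∀ c, (Q2 (Mh q) * V1 (Pi.single d (1 : F))) a c * Q2 q c b
      = (if c = d then Q2 (Mh q) a c * Q2 q c b else 0) - (if c = d + 1 then Q2 (Mh q) a c * Q2 q c b else 0) := by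
    intro c
    have e2 : (Q2 (Mh q) * V1 (Pi.single d (1 : F))) a c = Q2 (Mh q) a c * V1 (Pi.single d (1 : F)) c c := by
      rw [V1, Matrix.mul_diagonal, Matrix.diagonal_apply_eq]
    rw [e2, V1_single]
    split_ifs <;> ring
  simp only [e1, Finset.sum_sub_distrib, Finset.sum_ite_eq', Finset.mem_univ, if_true]
  have e3 : (2 : Fin 5) * (d + 1) = 2 * d + 2 := two_mul_succ d
  have s1 : Sv (2 * d) * Sv (2 * d) = (1 : F) := Sv_sq _
  have s2 : Sv (2 * d + 2) * Sv (2 * d + 2) = (1 : F) := Sv_sq _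
  have e4 : ∀ x y : F, (x - y) ^ 3 = x ^ 3 - y ^ 3 := fun x y => by
    linear_combination (x * y ^ 2 - x ^ 2 * y) * h3
  rw [AA, e4]
  simp only [Q2, e3]
  linear_combination (-(Sv (2 * a) * Sv (2 * b) * Mh q (2 * a) (2 * d) ^ 3 * q (2 * d) (2 * b) ^ 3)) * s1
    + (Sv (2 * a) * Sv (2 * b) * Mh q (2 * a) (2 * d + 2) ^ 3 * q (2 * d + 2) (2 * b) ^ 3) * s2

/-- the matrix of C3 for `D = e_d` -/
def ZZ (g : F) (q : Mt F) (d : Fin 5) : Mt F := fun a b =>
  if b = a then (∑ c, k00 g (a - c) * AA q d c c) - (∑ c, k01 g (a - c) * AA q (2 * d) (2 * c) (2 * c) ^ 3)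
      - ((if a = d + 2 then 1 else 0) - (if a = d then 1 else 0))
  else if b = a + 1 then g ^ 50 * AA q d a (a + 1) - c1 g a * (Sv (2 * a + 2) * Sv (2 * a + 3)) * AA q (2 * d) (2 * a + 2) (2 * a + 3) ^ 3
  else if b = a + 2 then AA q d a (a + 2)
  else if b = a + 3 then 0
  else g ^ 70 * AA q d a (a + 4) - c4 g a * (Sv (2 * a + 1) * Sv (2 * a)) * AA q (2 * d) (2 * a + 1) (2 * a) ^ 3

theorem CM_single (h3 : (3 : F) = 0) (q : Mt F) (d : Fin 5) : CM g q (Pi.single d (1 : F)) = ZZ g q d := by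
  funext a b
  have hA : (-(Mh q * V0 (Pi.single d (1 : F)) * q)) = fun a b => AA q d a b := by
    funext a b; exact TA_single q d a b
  have hB : (-(Q2 (Mh q) * V1 (Pi.single d (1 : F)) * Q2 q)) = fun a b => -(Sv (2 * a) * Sv (2 * b) * AA q (2 * d) (2 * a) (2 * b) ^ 3) := by
    funext a b; exact TB_single h3 q d a b
  rw [CM, hA, hB, Matrix.sub_apply]
  have s1 : ∀ c : Fin 5, Sv c * Sv c = (1 : F) := Sv_sq
  by_cases h : b = a
  · subst h
    simp only [XP0, ZZ, if_true, cr5, V0_single]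
    have e : ∀ c, k01 g (b - c) * -(Sv (2 * c) * Sv (2 * c) * AA q (2 * d) (2 * c) (2 * c) ^ 3)
        = -(k01 g (b - c) * AA q (2 * d) (2 * c) (2 * c) ^ 3) := by
      intro c; rw [s1]; ring
    simp only [e, Finset.sum_neg_distrib]
    ring
  have hz : V0 (Pi.single d (1 : F)) a b = 0 := V0_off _ (Ne.symm h)
  rw [hz, sub_zero]
  rcases fin5_or a b h with rfl | rfl | rfl | rfl
  · have n1 : ¬ (a + 1 = a) := ne1 a
    have e1 : (2 : Fin 5) * (a + 1) = 2 * a + 2 := by clear hz n1 h; revert a; decide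
    have e2 : (2 : Fin 5) * (a + 4) = 2 * a + 3 := by clear hz n1 h e1; revert a; decide
    simp only [XP0, ZZ, if_neg n1, if_true, e1, e2]
    ring
  · have n1 : ¬ (a + 2 = a) := ne2 a
    have n2 : ¬ (a + 2 = a + 1) := ne21 a
    simp only [XP0, ZZ, if_neg n1, if_neg n2, if_true]
  · have n1 : ¬ (a + 3 = a) := ne30 a
    have n2 : ¬ (a + 3 = a + 1) := ne31 a
    have n3 : ¬ (a + 3 = a + 2) := ne32 a
    simp only [XP0, ZZ, if_neg n1, if_neg n2, if_neg n3, if_true]
  · have n1 : ¬ (a + 4 = a) := ne40 a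
    have n2 : ¬ (a + 4 = a + 1) := fun h => ne14 a h.symm
    have n3 : ¬ (a + 4 = a + 2) := ne42 a
    have n4 : ¬ (a + 4 = a + 3) := ne43 a
    have e1 : (2 : Fin 5) * (a + 3) = 2 * a + 1 := by clear hz n1 h n2 n3 n4; revert a; decide
    simp only [XP0, ZZ, if_neg n1, if_neg n2, if_neg n3, if_neg n4, e1]
    ring

/-- **C3 entrywise**, `D = e_d` -/
theorem _root_.Cfsg.Agent.H879.E83.PNine.c3s (h : PNine g q) (h3 : (3 : F) = 0) (d a c : Fin 5) :
    ∑ b, q a b * ZZ g q d b c = ∑ b, q c b * ZZ g q d b a := by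
  have e := h.c3 (Pi.single d (1 : F))
  have e1 := CM_single (g := g) h3 q d
  rw [CM] at e1
  rw [e1] at e
  have e2 := congrFun (congrFun e c) a
  rw [Matrix.mul_apply, Matrix.mul_apply] at e2
  have hs : ∀ x y, q x y = q y x := fun x y => by
    conv_lhs => rw [← h.sym, Matrix.transpose_apply]
  have e3 : ∑ b, q a b * ZZ g q d b c = ∑ b, (ZZ g q d)ᵀ c b * q b a := by
    refine Finset.sum_congr rfl fun b _ => ?_
    rw [Matrix.transpose_apply, hs a b, mul_comm]
  rw [e3, e2]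

/-- helper947's form of `A` for `d = 0` -/
theorem AA_zero (q : Mt F) (i j : Fin 5) :
    AA q 0 i j = Jv i * (q (sgm i) 2 ^ 9 * q 0 j - q (sgm i) 0 ^ 9 * q 2 j) := by
  have e0 : sgm (0 : Fin 5) = 2 := by decide
  have e2 : sgm (0 + 2 : Fin 5) = 0 := by decide
  have j0 : Jv (0 : Fin 5) = (1 : F) := rfl
  have j2 : Jv (0 + 2 : Fin 5) = (1 : F) := rfl
  rw [AA, Mh, Mh, e0, e2, j0, j2]
  simp only [zero_add]
  ring

/-- rank one pieces: `RR q d a b = J a J d (q (σ a) (σ d))^9 q d b` -/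
def RR (q : Mt F) (d a b : Fin 5) : F := Mh q a d * q d b

theorem RR_eq (q : Mt F) (d a b : Fin 5) : RR q d a b = Jv a * Jv d * q (sgm a) (sgm d) ^ 9 * q d b := rfl

/-- `A`, general `D`: `w0 c = D (c - 2) - D c` -/
def AG (q : Mt F) (D : Fin 5 → F) (a b : Fin 5) : F := -∑ c, (D (c - 2) - D c) * RR q c a b

/-- `B`, general `D`, in the own indices of `W₁` (`(3a, 3b)`), signs removed -/
def BG (q : Mt F) (D : Fin 5 → F) (a b : Fin 5) : F := -∑ c, (D (3 * c) - D (3 * c - 1)) * RR q c a b ^ 3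

theorem TA_gen (q : Mt F) (D : Fin 5 → F) (a b : Fin 5) : (-(Mh q * V0 D * q)) a b = AG q D a b := by
  rw [Matrix.neg_apply, Matrix.mul_apply, AG]
  congr 1
  refine Finset.sum_congr rfl fun c _ => ?_
  rw [V0, Matrix.mul_diagonal, RR]
  ring

theorem TB_gen (q : Mt F) (D : Fin 5 → F) (a b : Fin 5) :
    (-(Q2 (Mh q) * V1 D * Q2 q)) a b = Sv (2 * a) * Sv (2 * b) * BG q D (2 * a) (2 * b) := by
  rw [Matrix.neg_apply, Matrix.mul_apply, BG, mul_neg, Finset.mul_sum]
  congr 1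
  have bij : Function.Bijective (fun c : Fin 5 => 3 * c) := by
    rw [Function.Bijective, Function.Injective, Function.Surjective]; decide
  rw [← Fintype.sum_bijective _ bij (fun c => (Q2 (Mh q) * V1 D) a (3 * c) * Q2 q (3 * c) b) _ fun c => rfl]
  refine Finset.sum_congr rfl fun c _ => ?_
  have e : (2 : Fin 5) * (3 * c) = c := by revert c; decide
  have s1 : Sv c * Sv c = (1 : F) := Sv_sq c
  rw [V1, Matrix.mul_diagonal]
  simp only [Q2, e, RR]
  linear_combination (Sv (2 * a) * Sv (2 * b) * Mh q (2 * a) c ^ 3 * q c (2 * b) ^ 3 * (D (3 * c) - D (3 * c - 1))) * s1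

/-- the matrix of C3 for general `D` -/
def ZG (g : F) (q : Mt F) (D : Fin 5 → F) : Mt F := fun a b =>
  if b = a then (∑ c, k00 g (a - c) * AG q D c c) + (∑ c, k01 g (a - c) * BG q D (2 * c) (2 * c)) - (D (a - 2) - D a)
  else if b = a + 1 then g ^ 50 * AG q D a (a + 1) + c1 g a * (Sv (2 * a + 2) * Sv (2 * a + 3)) * BG q D (2 * a + 2) (2 * a + 3)
  else if b = a + 2 then AG q D a (a + 2)
  else if b = a + 3 then 0
  else g ^ 70 * AG q D a (a + 4) + c4 g a * (Sv (2 * a + 1) * Sv (2 * a)) * BG q D (2 * a + 1) (2 * a)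

theorem CM_gen (q : Mt F) (D : Fin 5 → F) : CM g q D = ZG g q D := by
  funext a b
  have hA : (-(Mh q * V0 D * q)) = fun a b => AG q D a b := by
    funext a b; exact TA_gen q D a b
  have hB : (-(Q2 (Mh q) * V1 D * Q2 q)) = fun a b => Sv (2 * a) * Sv (2 * b) * BG q D (2 * a) (2 * b) := by
    funext a b; exact TB_gen q D a b
  rw [CM, hA, hB, Matrix.sub_apply]
  have s1 : ∀ c : Fin 5, Sv c * Sv c = (1 : F) := Sv_sq
  by_cases h : b = a
  · subst h
    simp only [XP0, ZG, if_true, cr5]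
    have e : ∀ c, k01 g (b - c) * (Sv (2 * c) * Sv (2 * c) * BG q D (2 * c) (2 * c))
        = k01 g (b - c) * BG q D (2 * c) (2 * c) := by
      intro c; rw [s1]; ring
    simp only [e]
    rw [V0, Matrix.diagonal_apply_eq]
  have hz : V0 D a b = 0 := V0_off _ (Ne.symm h)
  rw [hz, sub_zero]
  rcases fin5_or a b h with rfl | rfl | rfl | rfl
  · have n1 : ¬ (a + 1 = a) := ne1 a
    have e1 : (2 : Fin 5) * (a + 1) = 2 * a + 2 := by clear hz n1 h; revert a; decide
    have e2 : (2 : Fin 5) * (a + 4) = 2 * a + 3 := by clear hz n1 h e1; revert a; decide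
    simp only [XP0, ZG, if_neg n1, if_true, e1, e2]
    ring
  · have n1 : ¬ (a + 2 = a) := ne2 a
    have n2 : ¬ (a + 2 = a + 1) := ne21 a
    simp only [XP0, ZG, if_neg n1, if_neg n2, if_true]
  · have n1 : ¬ (a + 3 = a) := ne30 a
    have n2 : ¬ (a + 3 = a + 1) := ne31 a
    have n3 : ¬ (a + 3 = a + 2) := ne32 a
    simp only [XP0, ZG, if_neg n1, if_neg n2, if_neg n3, if_true]
  · have n1 : ¬ (a + 4 = a) := ne40 a
    have n2 : ¬ (a + 4 = a + 1) := fun h => ne14 a h.symm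
    have n3 : ¬ (a + 4 = a + 2) := ne42 a
    have n4 : ¬ (a + 4 = a + 3) := ne43 a
    have e1 : (2 : Fin 5) * (a + 3) = 2 * a + 1 := by clear hz n1 h n2 n3 n4; revert a; decide
    simp only [XP0, ZG, if_neg n1, if_neg n2, if_neg n3, if_neg n4, e1]
    ring

/-- **C3 entrywise**, general `D` -/
theorem _root_.Cfsg.Agent.H879.E83.PNine.c3g (h : PNine g q) (D : Fin 5 → F) (a c : Fin 5) :
    ∑ b, q a b * ZG g q D b c = ∑ b, q c b * ZG g q D b a := by
  have e := h.c3 D
  have e1 := CM_gen (g := g) q D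
  rw [CM] at e1
  rw [e1] at e
  have e2 := congrFun (congrFun e c) a
  rw [Matrix.mul_apply, Matrix.mul_apply] at e2
  have hs : ∀ x y, q x y = q y x := fun x y => by
    conv_lhs => rw [← h.sym, Matrix.transpose_apply]
  have e3 : ∑ b, q a b * ZG g q D b c = ∑ b, (ZG g q D)ᵀ c b * q b a := by
    refine Finset.sum_congr rfl fun b _ => ?_
    rw [Matrix.transpose_apply, hs a b, mul_comm]
  rw [e3, e2]

end
end Cfsg.Agent.H780.P9
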