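import Cfsg.Agent.H780.P9.NForm
import Cfsg.Agent.H780.P9.CThree
import Cfsg.Agent.H780.P9.PlanD
import Cfsg.Agent.H861.P9.PSpace

/-!
# S5925, box H: the interface of the WP lemmas (helper780)

`q` : the solution of `PNine`; `p = gau 1 (tau m) q` (torus gauge); `t` : the ten trits of helper861's `pspace`.
Scalar lists `K29 K33 K38 K40 K51`, lane lists `LC LS2 LS3`.

PLAN v3. WHO PROVES WHAT (names of the theorems, in your own file):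
* `wp_D1 (c : Ctx g q p m t) (x y : F) (s : Fin 11 → F) : WD1 g q p t x y s`
* `wp_S3 (c) (x y) (h : ∀ s, WD1 g q p t x y s) : WS3 g q p t x y`
* `wp_S2 (c) (h : WS3 g q p t 0 0) : WS2 g q p t`
* `wp_S2i (c) (h13 : p 1 3 = 1) (hq : ∃ i < 4, q 1 3 = g ^ i) (h : ∀ x y, WS3 g q p t x y) : WS2x g q p t plS2i`
* `wp_S2j (c) (h14 : p 1 4 = 1) (hq : ∃ i < 4, q 1 4 = g ^ i) (h : ∀ x y, WS3 g q p t x y) : WS2x g q p t plS2j`
* `wp_Alpha (c) (h13 : p 1 3 = 1) (h14 : p 1 4 ≠ 0) (h : WS2 g q p t) : WC g q p t plAlpha`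
* `wp_Alpha0` the same with `(h : WS2x g q p t plS2i) : WC g q p t plAlpha0`
* `wp_Beta1 (c) (h13 : p 1 3 = 1) (h14 : p 1 4 = 0) (h : WS2 g q p t) : WC g q p t plBeta1`
* `wp_Beta10` the same with `(h : WS2x g q p t plS2i) : WC g q p t plBeta10`
* `wp_Beta2 (c) (h13 : p 1 3 = 0) (h14 : p 1 4 = 1) (h : WS2 g q p t) : WC g q p t plBeta2`
* `wp_Beta20` the same with `(h : WS2x g q p t plS2j) : WC g q p t plBeta20`
* `wp_Beta3 (c) (hpq : p = q) (h13 : p 1 3 = 0) (h14 : p 1 4 = 0) (h : WS3 g q p t 0 0) : WC g q p t plBeta3`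
* `wp_Z0 (c) (hpq : p = q) (h01 : p 0 1 = 0) (h12 : p 1 2 = 0) (h13 : p 1 3 = 0) (h14 : p 1 4 = 0) (hn : NZ g q)
     (h : ∀ x y, WS3 g q p t x y) : WC g q p t plZ0`
-/

set_option autoImplicit false
set_option linter.style.longLine false

namespace Cfsg.Agent.H780.P9
open Matrix Cfsg.Agent.H879.E83

section
variable {F : Type*} [Field F] {g : F}

/-! ### rules for WP (use only these) -/
section rules
variable {G : Prop} {ks ls : List F}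

theorem WP_kf {e : Ex} {p : Plan} {x : F} (hx : e.eval g ks [] = x) (h : WP g G p (ks ++ [x]) ls) :
    WP g G (.kf e p) ks ls := by subst hx; exact h

theorem WP_kfl {cs : List Ex} {p : Plan} (hx : ∀ c ∈ cs, c.eval g ks [] = 0) (h : WP g G p ks ls) :
    WP g G (.kfl cs p) ks ls := ⟨hx, h⟩

theorem WP_ksp {e : Ex} {p q : Plan} (h0 : e.eval g ks [] = 0 → WP g G p ks ls) (h1 : e.eval g ks [] ≠ 0 → WP g G q ks ls) :
    WP g G (.ksp e p q) ks ls := ⟨h0, h1⟩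

theorem WP_alt {es : List Ex} {p : Plan} {x : F} (e : Ex) (he : e ∈ es) (hx : e.eval g ks [] = x) (h : WP g G p (ks ++ [x]) ls) :
    WP g G (.alt es p) ks ls := by subst hx; exact ⟨e, he, h⟩

theorem WP_or_left {p q : Plan} (h : WP g G p ks ls) : WP g G (.or p q) ks ls := Or.inl h

theorem WP_or_right {p q : Plan} (h : WP g G q ks ls) : WP g G (.or p q) ks ls := Or.inr h

theorem WP_ex {p : Plan} (y : F) (hy : y ^ 81 = y) (h : WP g G p ks (ls ++ [y, y ^ 79])) : WP g G (.ex p) ks ls := ⟨y, hy, h⟩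

theorem WP_exn {p : Plan} (y : F) (hy : y ^ 80 = 1) (h : WP g G p ks (ls ++ [y, y ^ 79])) : WP g G (.exn p) ks ls := ⟨y, hy, h⟩

theorem WP_df {e : Ex} {p : Plan} {x : F} (hx : e.eval g ks ls = x) (h : WP g G p ks (ls ++ [x])) :
    WP g G (.df e p) ks ls := by subst hx; exact h

/-- filter and select -/
theorem WP_fl {cs : List Ex} {js : List ℕ} {p : Plan} {ls' : List F} (hx : ∀ c ∈ cs, c.eval g ks ls = 0)
    (hj : (js.map fun j => ls.getD j 0) = ls') (h : WP g G p ks ls') : WP g G (.fl cs js p) ks ls := by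
  subst hj; exact ⟨hx, h⟩

theorem WP_sel {js : List ℕ} {p : Plan} {ls' : List F} (hx : (js.map fun j => ls.getD j 0) = ls') (h : WP g G p ks ls') :
    WP g G (.sel js p) ks ls := by subst hx; exact h

theorem WP_leaf {ds : List Ex} (h : (∀ d ∈ ds, d.eval g ks ls = 0) → G) : WP g G (.leaf ds) ks ls := h

end rules

/-! ### the data -/

/-- `J_a J_b P_ab` -/
def QQ (p : Mt F) (a b : Fin 5) : F := p a b * p (sgm a) (sgm b) ^ 9

def B02 (t : Fin 10 → F) : F := 1 + t 4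
def B00 (g : F) (t : Fin 10 → F) : F := g ^ 18 * t 1 + g ^ 43 * t 2 + g ^ 54 * t 3 + t 4
def B03 (g : F) (t : Fin 10 → F) : F := 1 + g ^ 45 * t 5 + g ^ 25 * t 6
def B04 (g : F) (t : Fin 10 → F) : F :=
  1 + g ^ 40 * t 0 + g ^ 43 * t 1 + g ^ 46 * t 2 + g ^ 49 * t 3 + t 4 + g ^ 5 * t 5 + g ^ 65 * t 6

/-- the solution -/
def solE : Fin 5 → Fin 5 → ℕ := ![![63, 0, 4, 35, 72], ![0, 1, 10, 44, 4], ![4, 10, 3, 42, 5], ![35, 44, 42, 65, 33], ![72, 4, 5, 33, 65]]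

def Sol (g : F) (q : Mt F) : Prop := ∀ a b, q a b = g ^ solE a b

/-- the context -/
structure Ctx (g : F) (q p : Mt F) (m : F) (t : Fin 10 → F) : Prop where
  hg : g ^ 4 = 1 - g
  h3 : (3 : F) = 0
  nine : PNine g q
  m80 : m ^ 80 = 1
  hp : p = gau 1 (tau m) q
  tr : ∀ i, t i = 0 ∨ t i = 1 ∨ t i = -1
  Q01 : QQ p 0 1 = 1 + t 0 + g ^ 1 * t 1 + g ^ 2 * t 2 + g ^ 3 * t 3
  Q13 : QQ p 1 3 = -(1 + t 4 + g ^ 25 * t 5 + g ^ 55 * t 6)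
  Q11 : QQ p 1 1 = t 0 + g ^ 20 * t 1 + g ^ 20 * t 2 + g ^ 60 * t 3 + t 4
  Q02 : QQ p 0 2 = B02 t + g ^ 20 * t 7
  Q00 : QQ p 0 0 = B00 g t + g ^ 60 * t 7
  Q03 : QQ p 0 3 = -(B03 g t + g ^ 20 * t 7 + t 8)
  Q04 : QQ p 0 4 = -(B04 g t + g ^ 60 * t 7 + -t 8)
  Q33 : QQ p 3 3 = t 0 + g ^ 43 * t 1 + g ^ 46 * t 2 + g ^ 55 * t 3 + g ^ 42 * t 5 + g ^ 3 * t 6 + t 8 + g ^ 20 * t 9
  Q34 : QQ p 3 4 = 1 + g ^ 20 * (t 1 + t 2 + t 3 + t 5 + t 6) + t 4 + -t 8 + g ^ 60 * t 9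

/-- scalars 0 .. 28 -/
def K29 (g : F) (p : Mt F) (t : Fin 10 → F) : List F :=
  [t 0, t 1, t 2, t 3, t 4, t 5, t 6, QQ p 0 1, QQ p 1 3, QQ p 1 1, B02 t, B00 g t, B03 g t, B04 g t,
   p 1 1, p 0 1, p 1 2, p 1 3, p 1 4, p 1 1 ^ 9, p 0 1 ^ 9, p 1 2 ^ 9, p 1 3 ^ 9, p 1 4 ^ 9, (p 1 4 ^ 9) ^ 79,
   p 0 1 * p 1 1 ^ 9, p 1 2 * p 1 1 ^ 9, p 0 1 * p 0 1 ^ 9, p 1 2 * p 1 2 ^ 9]

/-- scalars 0 .. 32 (`29` = t8, `30 31 32` = Q02, Q00, bar Q00) -/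
def K33 (g : F) (p : Mt F) (t : Fin 10 → F) : List F := K29 g p t ++ [t 7, QQ p 0 2, QQ p 0 0, QQ p 0 0 ^ 9]

/-- scalars 0 .. 37 (`33` = t9, `34 35 36 37` = Q03, Q04, bar Q03, bar Q04) -/
def K38 (g : F) (p : Mt F) (t : Fin 10 → F) : List F :=
  K33 g p t ++ [t 8, QQ p 0 3, QQ p 0 4, QQ p 0 3 ^ 9, QQ p 0 4 ^ 9]

def K40 (g : F) (p : Mt F) (t : Fin 10 → F) (x y : F) : List F := K38 g p t ++ [x, y]

def K51 (g : F) (p : Mt F) (t : Fin 10 → F) (x y : F) (s : Fin 11 → F) : List F :=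
  K40 g p t x y ++ [s 0, s 1, s 2, s 3, s 4, s 5, s 6, s 7, s 8, s 9, s 10]

/-- lanes of the continuations -/
def LC (p : Mt F) : List F :=
  [p 0 2, p 0 0, p 2 2,
   p 0 0 * p 1 2 ^ 9 + p 0 1 * p 1 1 ^ 9 + p 0 2 * p 0 1 ^ 9,
   p 0 2 * p 1 2 ^ 9 + p 1 2 * p 1 1 ^ 9 + p 2 2 * p 0 1 ^ 9,
   p 0 1 * p 0 1 ^ 9 + (p 0 0 * p 0 2 ^ 9 + (p 0 0 * p 0 2 ^ 9) ^ 9),
   p 1 2 * p 1 2 ^ 9 + (p 0 2 * p 2 2 ^ 9 + (p 0 2 * p 2 2 ^ 9) ^ 9)]

def LS2 (p : Mt F) : List F := [p 0 0, p 0 2, p 2 2, p 0 3, p 2 4, p 0 4, p 2 3]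

def LS3 (q : Mt F) : List F := [q 0 0, q 0 2, q 2 2, q 0 3, q 2 3, q 1 3, q 0 4, q 2 4, q 1 4]

/-! ### the statements -/

def WD1 (g : F) (q p : Mt F) (t : Fin 10 → F) (x y : F) (s : Fin 11 → F) : Prop :=
  WP g (Sol g q) plD1 (K51 g p t x y s) (LS3 q)

def WS3 (g : F) (q p : Mt F) (t : Fin 10 → F) (x y : F) : Prop := WP g (Sol g q) plS3 (K40 g p t x y) (LS3 q)

def WS2 (g : F) (q p : Mt F) (t : Fin 10 → F) : Prop := WP g (Sol g q) plS2 (K40 g p t 0 0) (LS2 p)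

/-- the variants `plS2i`, `plS2j` (no dummy scalars) -/
def WS2x (g : F) (q p : Mt F) (t : Fin 10 → F) (pl : Plan) : Prop := WP g (Sol g q) pl (K38 g p t) (LS2 p)

/-- normal form of the branch `q01 = q12 = q13 = q14 = 0` -/
def NZ (g : F) (q : Mt F) : Prop :=
  (∃ i < 5, q 0 4 = g ^ i) ∨ (q 0 4 = 0 ∧ ∃ i < 5, q 2 3 = g ^ i) ∨
    (q 0 4 = 0 ∧ q 2 3 = 0 ∧ ∃ i < 5, q 0 3 = g ^ i) ∨
    (q 0 4 = 0 ∧ q 2 3 = 0 ∧ q 0 3 = 0 ∧ (q 2 4 = 0 ∨ ∃ i < 5, q 2 4 = g ^ i))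

def WC (g : F) (q p : Mt F) (t : Fin 10 → F) (pl : Plan) : Prop := WP g (Sol g q) pl (K33 g p t) (LC p)

/-! ### consequences of the context -/

variable {q p : Mt F} {m : F} {t : Fin 10 → F}

theorem Ctx.four (c : Ctx g q p m t) : PFour g p := by
  rw [c.hp]; exact c.nine.four.gauge (Gk_tau c.m80) (one_pow _)

theorem Ctx.sym (c : Ctx g q p m t) (a b : Fin 5) : p a b = p b a := by
  conv_lhs => rw [← c.four.sym, Matrix.transpose_apply]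

theorem Ctx.symq (c : Ctx g q p m t) (a b : Fin 5) : q a b = q b a := by
  conv_lhs => rw [← c.nine.sym, Matrix.transpose_apply]

theorem Ctx.p81 (c : Ctx g q p m t) (a b : Fin 5) : p a b ^ 81 = p a b := c.four.pow81 a b

theorem Ctx.q81 (c : Ctx g q p m t) (a b : Fin 5) : q a b ^ 81 = q a b := c.nine.pow81 a b

theorem Ctx.papp (c : Ctx g q p m t) (a b : Fin 5) : p a b = tau m a * tau m b * q a b := by
  rw [c.hp, gau, one_mul]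

/-- the hermitian equations, expanded: `∑ J_b bar q_{σ a, σ b} q_{b c} = J_a δ_ac` -/
theorem herm_exp {p : Mt F} (h : Mh p * p = 1) (a c : Fin 5) :
    p (sgm a) 2 ^ 9 * p 0 c + p (sgm a) 1 ^ 9 * p 1 c + p (sgm a) 0 ^ 9 * p 2 c - p (sgm a) 4 ^ 9 * p 3 c
      - p (sgm a) 3 ^ 9 * p 4 c = if a = c then Jv a else 0 := by
  have e := congrFun (congrFun h a) c
  rw [Matrix.mul_apply, Fin.sum_univ_five] at e
  have s0 : sgm (0 : Fin 5) = 2 := by decide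
  have s1 : sgm (1 : Fin 5) = 1 := by decide
  have s2 : sgm (2 : Fin 5) = 0 := by decide
  have s3 : sgm (3 : Fin 5) = 4 := by decide
  have s4 : sgm (4 : Fin 5) = 3 := by decide
  have j0 : Jv (0 : Fin 5) = (1 : F) := rfl
  have j1 : Jv (1 : Fin 5) = (1 : F) := rfl
  have j2 : Jv (2 : Fin 5) = (1 : F) := rfl
  have j3 : Jv (3 : Fin 5) = (-1 : F) := rfl
  have j4 : Jv (4 : Fin 5) = (-1 : F) := rfl
  have jj : Jv a * Jv a = (1 : F) := by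
    have : ∀ a : Fin 5, Jv a * Jv a = (1 : F) := by
      intro a; fin_cases a <;> simp [Jv]
    exact this a
  simp only [Mh, s0, s1, s2, s3, s4, j0, j1, j2, j3, j4] at e
  by_cases hac : a = c
  · rw [if_pos hac]
    rw [Matrix.one_apply, if_pos hac] at e
    linear_combination Jv a * e - (p (sgm a) 2 ^ 9 * p 0 c + p (sgm a) 1 ^ 9 * p 1 c + p (sgm a) 0 ^ 9 * p 2 c
      - p (sgm a) 4 ^ 9 * p 3 c - p (sgm a) 3 ^ 9 * p 4 c) * jj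
  · rw [if_neg hac]
    rw [Matrix.one_apply, if_neg hac] at e
    linear_combination Jv a * e - (p (sgm a) 2 ^ 9 * p 0 c + p (sgm a) 1 ^ 9 * p 1 c + p (sgm a) 0 ^ 9 * p 2 c
      - p (sgm a) 4 ^ 9 * p 3 c - p (sgm a) 3 ^ 9 * p 4 c) * jj

/-- the hermitian equations for `σ a`: `∑ J_b bar q_{a, σ b} q_{b c}` -/
theorem herm_exp' {p : Mt F} (h : Mh p * p = 1) (a c : Fin 5) :
    p a 2 ^ 9 * p 0 c + p a 1 ^ 9 * p 1 c + p a 0 ^ 9 * p 2 c - p a 4 ^ 9 * p 3 c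
      - p a 3 ^ 9 * p 4 c = if sgm a = c then Jv (sgm a) else 0 := by
  have e := herm_exp h (sgm a) c
  rwa [sgm_sgm] at e

end
end Cfsg.Agent.H780.P9
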