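import Cfsg.Agent.H780.P9.ContsOf
import Cfsg.Agent.H879.E83.WpSThree
import Cfsg.Agent.H861.P9.WPD
import Cfsg.Agent.H377.P9.STwo
import Cfsg.Agent.H377.P9.STwoB
import Cfsg.Agent.H908.P9.Alpha
import Cfsg.Agent.H51.P9.Beta
import Cfsg.Agent.H239.P9.Beta3
import Cfsg.Agent.H277.P9.Z0Top
import Cfsg.Agent.H518.P9.Stage

/-!
# S5925, box H: all the WP lemmas together (helper780)
-/

set_option autoImplicit false
set_option linter.style.longLine false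

namespace Cfsg.Agent.H780.P9
open Matrix Cfsg.Agent.H879.E83

theorem wps {F : Type*} [Field F] (g : F) : WPs g where
  D1 c x y s := Cfsg.Agent.H861.P9.wp_D1 c x y s
  S3 c x y h := Cfsg.Agent.H879.E83.wp_S3 c x y h
  S2 c h := Cfsg.Agent.H377.P9.wp_S2 c h
  S2i c h13 hq h := Cfsg.Agent.H377.P9.wp_S2i c h13 hq h
  S2j c h14 hq h := Cfsg.Agent.H377.P9.wp_S2j c h14 hq h
  Alpha c h13 h14 h := Cfsg.Agent.H908.P9.wp_Alpha c h13 h14 h
  Alpha0 c h13 h14 h := Cfsg.Agent.H908.P9.wp_Alpha0 c h13 h14 h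
  Beta1 c h13 h14 h := Cfsg.Agent.H51.P9.wp_Beta1 c h13 h14 h
  Beta10 c h13 h14 h := Cfsg.Agent.H51.P9.wp_Beta10 c h13 h14 h
  Beta2 c h13 h14 h := Cfsg.Agent.H51.P9.wp_Beta2 c h13 h14 h
  Beta20 c h13 h14 h := Cfsg.Agent.H51.P9.wp_Beta20 c h13 h14 h
  Beta3 c hpq h13 h14 h := Cfsg.Agent.H239.P9.wp_Beta3 c hpq h13 h14 h
  Z0 c hpq h01 h12 h13 h14 hn h := Cfsg.Agent.H277.P9.wp_Z0 c hpq h01 h12 h13 h14 hn h
  Ca c h := Cfsg.Agent.H518.P9.wp_Ca c h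
  Cb1 c h := Cfsg.Agent.H518.P9.wp_Cb1 c h
  Cb2 c h := Cfsg.Agent.H518.P9.wp_Cb2 c h
  Cb3 c h := Cfsg.Agent.H518.P9.wp_Cb3 c h
  Ca0 c h := Cfsg.Agent.H518.P9.wp_Ca0 c h
  Cb10 c h := Cfsg.Agent.H518.P9.wp_Cb10 c h
  Cb20 c h := Cfsg.Agent.H518.P9.wp_Cb20 c h
  Cz c h := Cfsg.Agent.H518.P9.wp_Cz c h

/-- **box H from the soundness of the runs alone** -/
theorem search_of_snd {F : Type*} [Field F] [CharP F 3] {g : F} (hg : g ^ 4 = 1 - g)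
    (snd : ∀ (ks : List F) (G : Prop), ks.length = 7 → (∀ x ∈ ks, x = 0 ∨ x = 1 ∨ x = -1) →
      Cfsg.Agent.H728.PM.Plan.WP g Cfsg.Agent.H136.P9.plan ks [] G → G)
    (q : Mt F) (h : PNine g q) : Cfsg.Agent.H947.P9.Concl g q := by
  refine (wps g).search hg (fun t G ht hw => snd [t 0, t 1, t 2, t 3, t 4, t 5, t 6] G rfl ?_ hw) q h
  intro x hx
  simp only [List.mem_cons, List.not_mem_nil, or_false] at hx
  rcases hx with rfl | rfl | rfl | rfl | rfl | rfl | rfl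
  all_goals exact ht _

end Cfsg.Agent.H780.P9
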