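import Cfsg.Agent.H728.PM.Def

/-!
# S5925, box H: names for helper728's plan language (helper780)
-/

set_option autoImplicit false

namespace Cfsg.Agent.H780.P9.PM
export Cfsg.Agent.H728.PM (Ex Plan)
end Cfsg.Agent.H780.P9.PM

namespace Cfsg.Agent.H780.P9.PM.Ex
export Cfsg.Agent.H728.PM.Ex (k v pw zero add sub neg mul fr eval)
end Cfsg.Agent.H780.P9.PM.Ex

namespace Cfsg.Agent.H780.P9.PM.Plan
export Cfsg.Agent.H728.PM.Plan (kf kfl ksp alt or ex exn df fl sel leaf)
end Cfsg.Agent.H780.P9.PM.Plan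

namespace Cfsg.Agent.H780.P9

abbrev Ex : Type := Cfsg.Agent.H728.PM.Ex
abbrev Plan : Type := Cfsg.Agent.H728.PM.Plan

/-- `WP`, goal first -/
abbrev WP {F : Type*} [Field F] (g : F) (G : Prop) (p : Plan) (ks ls : List F) : Prop :=
  Cfsg.Agent.H728.PM.Plan.WP g p ks ls G

end Cfsg.Agent.H780.P9
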