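import Cfsg.Agent.H780.P9.Top
import Cfsg.Agent.H947.P9.Stmt

/-!
# S5925, box H: from the WP of the plan to the statement of the search (helper780)
-/

set_option autoImplicit false
set_option linter.style.longLine false

namespace Cfsg.Agent.H780.P9
open Matrix Cfsg.Agent.H879.E83

section
variable {F : Type*} [Field F] {g : F} {q p : Mt F} {m : F} {t : Fin 10 → F}

theorem gau_tau_one (q : Mt F) : gau 1 (tau 1) q = q := by
  funext a b
  have e : ∀ a : Fin 5, tau (1 : F) a = 1 := by
    intro a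
    fin_cases a <;> simp [tau]
  rw [gau, e, e]; ring

/-- `J_a J_b P_ab = QQ` -/
theorem QQ_P (q : Mt F) (a b : Fin 5) : Mh q a b * q a b = Jv a * Jv b * QQ q a b := by
  rw [Mh, QQ]; ring

/-- the context from helper861's `pspace` -/
theorem exists_ctx [CharP F 3] (hg : g ^ 4 = 1 - g) (h : PNine g q) : ∃ t : Fin 10 → F, Ctx g q q 1 t := by
  have h3 : (3 : F) = 0 := by exact_mod_cast CharP.cast_eq_zero F 3
  obtain ⟨t, ht, h01, h13, h11, h02, h00, h03, h04, h33, h34⟩ := Cfsg.Agent.H861.P9.pspace hg h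
  have m20 : g ^ 20 * g ^ 20 = -1 := by rw [← pow_add]; exact g40 hg h3
  have g40' := g40 hg h3
  have j0 : Jv (0 : Fin 5) = (1 : F) := rfl
  have j1 : Jv (1 : Fin 5) = (1 : F) := rfl
  have j2 : Jv (2 : Fin 5) = (1 : F) := rfl
  have j3 : Jv (3 : Fin 5) = (-1 : F) := rfl
  have j4 : Jv (4 : Fin 5) = (-1 : F) := rfl
  rw [QQ_P] at h01 h13 h11 h02 h00 h03 h04 h33 h34
  simp only [j0, j1, j2, j3, j4] at h01 h13 h11 h02 h00 h03 h04 h33 h34
  refine ⟨t, ?_⟩
  constructor
  · exact hg
  · exact h3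
  · exact h
  · exact one_pow _
  · exact (gau_tau_one q).symm
  · intro i
    rcases ht i with h | h | h
    · exact Or.inl h
    · exact Or.inr (Or.inl h)
    · exact Or.inr (Or.inr (by rw [h]; linear_combination h3))
  · linear_combination h01
  · linear_combination -h13
  · linear_combination h11
  · rw [B02]; linear_combination h02
  · rw [B00]; linear_combination h00
  · rw [B03]; linear_combination -h03
  · rw [B04]; linear_combination -h04 - t 8 * g40'
  · linear_combination h33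
  · linear_combination h34 + t 8 * g40'

/-- the result of the search from the soundness of the runs and the WP lemmas of the sub-plans -/
theorem search_of [CharP F 3] (hg : g ^ 4 = 1 - g)
    (snd : ∀ (t : Fin 10 → F) (G : Prop), (∀ i, t i = 0 ∨ t i = 1 ∨ t i = -1) →
      WP g G plan [t 0, t 1, t 2, t 3, t 4, t 5, t 6] [] → G)
    (cts : ∀ (q : Mt F) (t : Fin 10 → F), Ctx g q q 1 t → Conts g q t) (q : Mt F) (h : PNine g q) :
    Cfsg.Agent.H947.P9.Concl g q := by
  have h3 : (3 : F) = 0 := by exact_mod_cast CharP.cast_eq_zero F 3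
  obtain ⟨z, l, hz, hl, hn, h11, h01⟩ := nf_full h hg h3
  obtain ⟨t, c⟩ := exists_ctx hg hn
  have hs : Sol g (gau z (kap l) q) := snd t _ c.tr (wp_plan c (cts _ t c) h11 h01)
  have hz0 : z ≠ 0 := z_ne hz
  have hl0 : l ≠ 0 := ne_of_pow80 hl
  refine ⟨l⁻¹, z⁻¹, by rw [inv_pow, hl, inv_one], by rw [inv_pow, hz, inv_one], fun a b => ?_⟩
  have e := hs a b
  rw [gau_apply, kap_eq, kap_eq] at e
  have e1 : Cfsg.Agent.H947.P9.Q0E a b = solE a b := rfl
  have e2 : Cfsg.Agent.H947.P9.KE a = ke a := rfl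
  have e3 : Cfsg.Agent.H947.P9.KE b = ke b := rfl
  rw [e1, e2, e3, ← e, inv_pow, inv_pow]
  have hla : l ^ ke a ≠ 0 := pow_ne_zero _ hl0
  have hlb : l ^ ke b ≠ 0 := pow_ne_zero _ hl0
  field_simp

end
end Cfsg.Agent.H780.P9
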