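import Cfsg.Agent.H780.P9.All
import Cfsg.Agent.H728.PM.Sound

/-!
# S5925, box H: the search from the runs (helper780)
-/

set_option autoImplicit false

namespace Cfsg.Agent.H780.P9
open Cfsg.Agent.H879.E83

/-- **box H** from the run theorems -/
theorem search_of_runs
    (H : ∀ d < 2187, ∃ a n, a ≤ d ∧ d < a + n ∧ Cfsg.Agent.H728.PM.rng Cfsg.Agent.H136.P9.plan a n = true)
    (F : Type*) [Field F] [CharP F 3] (g : F) : Cfsg.Agent.H947.P9.Search F g := fun hg q h =>
  search_of_snd hg (fun _ _ hl ht hw =>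
    Cfsg.Agent.H728.PM.rng_sound (hg.trans (by ring)) H hl ht hw) q h

end Cfsg.Agent.H780.P9
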