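import Cfsg.Agent.H879.E83.PNine

/-!
# S5925, box H: the gauge group of the search (helper780)

`q ↦ z κ q κ`, `κ (σ a) ^ 9 * κ a = 1`, `z ^ 10 = 1` preserves the symmetric / hermitian / `P` hypotheses;
`κ = (l, 1, l⁻⁹, l⁻³⁶, l⁴)` also preserves C3.
-/

set_option autoImplicit false
set_option linter.style.longLine false

namespace Cfsg.Agent.H780.P9
open Matrix Cfsg.Agent.H879.E83

section
variable {F : Type*} [Field F] {g : F} {q : Mt F}

/-- gauge transform -/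
def gau (z : F) (k : Fin 5 → F) (q : Mt F) : Mt F := fun a b => z * k a * k b * q a b

theorem gau_eq (z : F) (k : Fin 5 → F) (q : Mt F) :
    gau z k q = z • (Matrix.diagonal k * q * Matrix.diagonal k) := by
  funext a b
  rw [Matrix.smul_apply, Matrix.mul_diagonal, Matrix.diagonal_mul, gau, smul_eq_mul]
  ring

/-- the hypotheses without C3 -/
structure PFour (g : F) (q : Mt F) : Prop where
  sym : qᵀ = q
  pow81 : ∀ a b, q a b ^ 81 = q a b
  herm : Mh q * q = 1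
  trits : ∃ n : Fin 5 → Fin 5 → ZMod 3, (∀ l, n 0 l = 0) ∧ (∀ j, n j 0 = 0) ∧ (∀ j l, n (-l) (-j) = n j l) ∧
      ∀ a b, Mh q a b * q a b = (if a = b then 0 else 1)
        - ∑ j, ∑ l, ((n j l).val : F) * g ^ (eE j l) * ch g l a * ch g (-j) b

theorem _root_.Cfsg.Agent.H879.E83.PNine.four (h : PNine g q) : PFour g q := ⟨h.sym, h.pow81, h.herm, h.trits⟩

/-- condition on the diagonal matrix -/
def Gk (k : Fin 5 → F) : Prop := ∀ a, k (sgm a) ^ 9 * k a = 1

theorem sgm_sgm (a : Fin 5) : sgm (sgm a) = a := by revert a; decide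

variable {k : Fin 5 → F} {z : F}

theorem Gk.ne (hk : Gk k) (a : Fin 5) : k a ≠ 0 := right_ne_zero_of_mul_eq_one (hk a)

theorem Gk.inv (hk : Gk k) (a : Fin 5) : k (sgm a) ^ 9 = (k a)⁻¹ := eq_inv_of_mul_eq_one_left (hk a)

theorem Gk.pow80 (hk : Gk k) (a : Fin 5) : k a ^ 80 = 1 := by
  have h1 := hk a
  have h2 := hk (sgm a)
  rw [sgm_sgm] at h2
  have h3 : k (sgm a) = (k a ^ 9)⁻¹ := eq_inv_of_mul_eq_one_right h2
  rw [h3] at h1
  have h4 := hk.ne a
  field_simp at h1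
  rw [← h1]

theorem Mh_gau (hk : Gk k) (a b : Fin 5) : Mh (gau z k q) a b = z ^ 9 * (k a)⁻¹ * (k b)⁻¹ * Mh q a b := by
  rw [Mh, Mh, gau, ← hk.inv a, ← hk.inv b]
  ring

theorem z_ne (hz : z ^ 10 = 1) : z ≠ 0 := by
  rintro rfl
  norm_num at hz

theorem Mh_mul_gau (hk : Gk k) (hz : z ^ 10 = 1) (a b : Fin 5) :
    Mh (gau z k q) a b * gau z k q a b = Mh q a b * q a b := by
  have ha := hk.ne a
  have hb := hk.ne b
  rw [Mh_gau hk, gau]
  field_simp
  linear_combination (Mh q a b * q a b) * hz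

theorem PFour.gauge (h : PFour g q) (hk : Gk k) (hz : z ^ 10 = 1) : PFour g (gau z k q) where
  sym := by
    funext a b
    rw [Matrix.transpose_apply, gau, gau]
    have : q b a = q a b := by conv_lhs => rw [← h.sym, Matrix.transpose_apply]
    rw [this]; ring
  pow81 a b := by
    have e1 := hk.pow80 a
    have e2 := hk.pow80 b
    have e3 : z ^ 80 = 1 := by
      calc z ^ 80 = (z ^ 10) ^ 8 := by ring
        _ = 1 := by rw [hz, one_pow]
    rw [gau]
    calc (z * k a * k b * q a b) ^ 81 = z ^ 80 * k a ^ 80 * k b ^ 80 * (z * k a * k b) * q a b ^ 81 := by ring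
      _ = z * k a * k b * q a b := by rw [e1, e2, e3, h.pow81]; ring
  herm := by
    have e : Mh (gau z k q) * gau z k q = 1 := by
      funext a b
      rw [Matrix.mul_apply]
      have e1 : ∀ c, Mh (gau z k q) a c * gau z k q c b = (z ^ 10 * (k a)⁻¹ * k b) * (Mh q a c * q c b) := by
        intro c
        have hc := hk.ne c
        rw [Mh_gau hk, gau]
        field_simp
      simp only [e1]
      rw [← Finset.mul_sum, ← Matrix.mul_apply, h.herm, hz]
      by_cases hab : a = b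
      · subst hab
        rw [Matrix.one_apply_eq, one_mul, mul_one, inv_mul_cancel₀ (hk.ne a)]
      · rw [Matrix.one_apply_ne hab, mul_zero]
    exact e
  trits := by
    obtain ⟨n, h1, h2, h3, h4⟩ := h.trits
    refine ⟨n, h1, h2, h3, fun a b => ?_⟩
    rw [Mh_mul_gau hk hz, h4]

/-- the torus of the centraliser of `x, y`: `κ(l) = (l, 1, l⁻⁹, l⁻³⁶, l⁴)` -/
def kap (l : F) : Fin 5 → F := ![l, 1, l ^ 71, l ^ 44, l ^ 4]

theorem Gk_kap {l : F} (hl : l ^ 80 = 1) : Gk (kap l) := by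
  intro a
  fin_cases a
  · change (l ^ 71) ^ 9 * l = 1
    calc (l ^ 71) ^ 9 * l = (l ^ 80) ^ 8 := by ring
      _ = 1 := by rw [hl, one_pow]
  · change (1 : F) ^ 9 * 1 = 1
    ring
  · change l ^ 9 * l ^ 71 = 1
    rw [← pow_add, hl]
  · change (l ^ 4) ^ 9 * l ^ 44 = 1
    rw [← pow_mul, ← pow_add, hl]
  · change (l ^ 44) ^ 9 * l ^ 4 = 1
    calc (l ^ 44) ^ 9 * l ^ 4 = (l ^ 80) ^ 5 := by ring
      _ = 1 := by rw [hl, one_pow]

/-- the torus acting on the block `3, 4` -/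
def tau (m : F) : Fin 5 → F := ![1, 1, 1, m, m ^ 71]

theorem Gk_tau {m : F} (hm : m ^ 80 = 1) : Gk (tau m) := by
  intro a
  fin_cases a
  · change (1 : F) ^ 9 * 1 = 1
    ring
  · change (1 : F) ^ 9 * 1 = 1
    ring
  · change (1 : F) ^ 9 * 1 = 1
    ring
  · change (m ^ 71) ^ 9 * m = 1
    calc (m ^ 71) ^ 9 * m = (m ^ 80) ^ 8 := by ring
      _ = 1 := by rw [hm, one_pow]
  · change m ^ 9 * m ^ 71 = 1
    rw [← pow_add, hm]

/-- `K⁻¹ A K` -/
def cj (k : Fin 5 → F) (A : Mt F) : Mt F := fun a b => (k a)⁻¹ * k b * A a b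

def kap1 (k : Fin 5 → F) : Fin 5 → F := fun a => k (2 * a) ^ 3

theorem Q2_gau (a b : Fin 5) : Q2 (gau z k q) a b = z ^ 3 * kap1 k a * kap1 k b * Q2 q a b := by
  simp only [Q2, gau, kap1]
  ring

theorem Q2_Mh_gau (hk : Gk k) (a b : Fin 5) :
    Q2 (Mh (gau z k q)) a b = z ^ 27 * (kap1 k a)⁻¹ * (kap1 k b)⁻¹ * Q2 (Mh q) a b := by
  simp only [Q2, Mh_gau hk, kap1]
  ring

theorem TA_gau (hk : Gk k) (hz : z ^ 10 = 1) (D : Fin 5 → F) :
    -(Mh (gau z k q) * V0 D * gau z k q) = cj k (-(Mh q * V0 D * q)) := by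
  funext a b
  rw [cj, Matrix.neg_apply, Matrix.neg_apply, Matrix.mul_apply, Matrix.mul_apply, mul_neg, Finset.mul_sum]
  congr 1
  refine Finset.sum_congr rfl fun c _ => ?_
  have hc := mul_inv_cancel₀ (hk.ne c)
  rw [V0, Matrix.mul_diagonal, Matrix.mul_diagonal, Mh_gau hk, gau]
  linear_combination ((k a)⁻¹ * Mh q a c * (D (c - 2) - D c) * q c b * k b) * (k c * (k c)⁻¹ * hz + hc)

theorem TB_gau (hk : Gk k) (hz : z ^ 10 = 1) (D : Fin 5 → F) :
    -(Q2 (Mh (gau z k q)) * V1 D * Q2 (gau z k q)) = cj (kap1 k) (-(Q2 (Mh q) * V1 D * Q2 q)) := by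
  funext a b
  rw [cj, Matrix.neg_apply, Matrix.neg_apply, Matrix.mul_apply, Matrix.mul_apply, mul_neg, Finset.mul_sum]
  congr 1
  refine Finset.sum_congr rfl fun c _ => ?_
  have hc : kap1 k c * (kap1 k c)⁻¹ = 1 := mul_inv_cancel₀ (pow_ne_zero _ (hk.ne _))
  rw [V1, Matrix.mul_diagonal, Matrix.mul_diagonal, Q2_Mh_gau hk, Q2_gau]
  have e : z ^ 30 = 1 := by
    calc z ^ 30 = (z ^ 10) ^ 3 := by ring
      _ = 1 := by rw [hz, one_pow]
  linear_combination ((kap1 k a)⁻¹ * Q2 (Mh q) a c * (D c - D (c - 1)) * Q2 q c b * kap1 k b) *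
    (kap1 k c * (kap1 k c)⁻¹ * e + hc)

/-- the compatibility of `κ` with the table of `x` -/
structure Gx (k : Fin 5 → F) : Prop where
  e1 : ∀ a, (k a)⁻¹ * k (a + 1) = (kap1 k (a + 1))⁻¹ * kap1 k (a + 4)
  e4 : ∀ a, (k a)⁻¹ * k (a + 4) = (kap1 k (a + 3))⁻¹ * kap1 k a

theorem cj_diag (hk : ∀ a, k a ≠ 0) (A : Mt F) (a : Fin 5) : cj k A a a = A a a := by
  rw [cj, inv_mul_cancel₀ (hk a), one_mul]

theorem ne1 (a : Fin 5) : a + 1 ≠ a := by revert a; decide
theorem ne2 (a : Fin 5) : a + 2 ≠ a := by revert a; decide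
theorem ne31 (a : Fin 5) : a + 3 ≠ a + 1 := by revert a; decide
theorem ne32 (a : Fin 5) : a + 3 ≠ a + 2 := by revert a; decide
theorem ne42 (a : Fin 5) : a + 4 ≠ a + 2 := by revert a; decide
theorem ne43 (a : Fin 5) : a + 4 ≠ a + 3 := by revert a; decide

theorem XP0_cj (hk : Gk k) (hx : Gx k) (A B : Mt F) :
    XP0 g (cj k A) (cj (kap1 k) B) = cj k (XP0 g A B) := by
  have h1 : ∀ a, kap1 k a ≠ 0 := fun a => pow_ne_zero _ (hk.ne _)
  funext a b
  by_cases h : b = a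
  · subst h
    rw [cj_diag hk.ne]
    simp only [XP0, if_true, cr5, cj_diag hk.ne, cj_diag h1]
  rcases fin5_or a b h with rfl | rfl | rfl | rfl
  · have n1 : ¬ (a + 1 = a) := ne1 a
    have e := hx.e1 a
    simp only [XP0, cj, if_neg n1, if_true]
    rw [← e]; ring
  · have n1 : ¬ (a + 2 = a) := ne2 a
    have n2 : ¬ (a + 2 = a + 1) := ne21 a
    simp only [XP0, cj, if_neg n1, if_neg n2, if_true]
  · have n1 : ¬ (a + 3 = a) := ne30 a
    have n2 : ¬ (a + 3 = a + 1) := ne31 a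
    have n3 : ¬ (a + 3 = a + 2) := ne32 a
    simp only [XP0, cj, if_neg n1, if_neg n2, if_neg n3, if_true, mul_zero]
  · have e := hx.e4 a
    have n1 : ¬ (a + 4 = a) := ne40 a
    have n2 : ¬ (a + 4 = a + 1) := fun h => ne14 a h.symm
    have n3 : ¬ (a + 4 = a + 2) := ne42 a
    have n4 : ¬ (a + 4 = a + 3) := ne43 a
    simp only [XP0, cj, if_neg n1, if_neg n2, if_neg n3, if_neg n4]
    rw [← e]; ring

/-- exponents of `κ` -/
def ke : Fin 5 → ℕ := ![1, 0, 71, 44, 4]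

theorem kap_eq (l : F) (a : Fin 5) : kap l a = l ^ ke a := by
  fin_cases a
  · exact (pow_one l).symm
  · exact (pow_zero l).symm
  · rfl
  · rfl
  · rfl

theorem pow_mod80 {l : F} (hl : l ^ 80 = 1) {n m : ℕ} (h : n % 80 = m % 80) : l ^ n = l ^ m := by
  rw [← Nat.div_add_mod n 80, ← Nat.div_add_mod m 80, pow_add, pow_add, pow_mul, pow_mul, hl, one_pow, one_pow, h]

theorem ne_of_pow80 {l : F} (hl : l ^ 80 = 1) : l ≠ 0 := by
  rintro rfl
  norm_num at hl

theorem ke_e1 (a : Fin 5) : (ke (a + 1) + ke (2 * (a + 1)) * 3) % 80 = (ke (2 * (a + 4)) * 3 + ke a) % 80 := by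
  revert a; decide

theorem ke_e4 (a : Fin 5) : (ke (a + 4) + ke (2 * (a + 3)) * 3) % 80 = (ke (2 * a) * 3 + ke a) % 80 := by
  revert a; decide

theorem inv_mul_cross {x y u v : F} (hx : x ≠ 0) (hu : u ≠ 0) (e : y * u = v * x) : x⁻¹ * y = u⁻¹ * v := by
  field_simp
  linear_combination e

theorem Gx_kap {l : F} (hl : l ^ 80 = 1) : Gx (kap l) := by
  have hl0 : l ≠ 0 := ne_of_pow80 hl
  constructor
  · intro a
    simp only [kap1, kap_eq, ← pow_mul]
    refine inv_mul_cross (pow_ne_zero _ hl0) (pow_ne_zero _ hl0) ?_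
    rw [← pow_add, ← pow_add]
    exact pow_mod80 hl (ke_e1 a)
  · intro a
    simp only [kap1, kap_eq, ← pow_mul]
    refine inv_mul_cross (pow_ne_zero _ hl0) (pow_ne_zero _ hl0) ?_
    rw [← pow_add, ← pow_add]
    exact pow_mod80 hl (ke_e4 a)

theorem cj_sub (A B : Mt F) : cj k (A - B) = cj k A - cj k B := by
  funext a b
  simp only [cj, Matrix.sub_apply]
  ring

theorem cj_V0 (hk : ∀ a, k a ≠ 0) (D : Fin 5 → F) : cj k (V0 D) = V0 D := by
  funext a b
  by_cases hab : a = b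
  · subst hab
    rw [cj_diag hk]
  · rw [cj, V0_off D hab, mul_zero]

/-- `q M` symmetric is preserved -/
theorem symm_cj (hk : ∀ a, k a ≠ 0) {M : Mt F} (h : Mᵀ * q = q * M) : (cj k M)ᵀ * gau z k q = gau z k q * cj k M := by
  funext a b
  have e := congrFun (congrFun h a) b
  rw [Matrix.mul_apply, Matrix.mul_apply] at e ⊢
  have e1 : ∀ c, (cj k M)ᵀ a c * gau z k q c b = z * k a * k b * (Mᵀ a c * q c b) := by
    intro c
    have hc := mul_inv_cancel₀ (hk c)
    simp only [Matrix.transpose_apply, cj, gau]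
    linear_combination (z * k a * k b * M c a * q c b) * hc
  have e2 : ∀ c, gau z k q a c * cj k M c b = z * k a * k b * (q a c * M c b) := by
    intro c
    have hc := mul_inv_cancel₀ (hk c)
    simp only [cj, gau]
    linear_combination (z * k a * k b * q a c * M c b) * hc
  simp only [e1, e2, ← Finset.mul_sum, e]

/-- the matrix `pr (x T v) - v` of C3 -/
def CM (g : F) (q : Mt F) (D : Fin 5 → F) : Mt F :=
  XP0 g (-(Mh q * V0 D * q)) (-(Q2 (Mh q) * V1 D * Q2 q)) - V0 D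

theorem CM_gau (hk : Gk k) (hx : Gx k) (hz : z ^ 10 = 1) (D : Fin 5 → F) : CM g (gau z k q) D = cj k (CM g q D) := by
  rw [CM, CM, TA_gau hk hz, TB_gau hk hz, XP0_cj hk hx, cj_sub, cj_V0 hk.ne]

theorem _root_.Cfsg.Agent.H879.E83.PNine.gauge (h : PNine g q) (hk : Gk k) (hx : Gx k) (hz : z ^ 10 = 1) :
    PNine g (gau z k q) where
  sym := (h.four.gauge hk hz).sym
  pow81 := (h.four.gauge hk hz).pow81
  herm := (h.four.gauge hk hz).herm
  trits := (h.four.gauge hk hz).trits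
  c3 D := by
    have e := CM_gau (g := g) (q := q) (D := D) hk hx hz
    rw [CM, CM] at e
    rw [e]
    exact symm_cj hk.ne (h.c3 D)

theorem _root_.Cfsg.Agent.H879.E83.PNine.gauge_kap (h : PNine g q) {l : F} (hl : l ^ 80 = 1) (hz : z ^ 10 = 1) :
    PNine g (gau z (kap l) q) := h.gauge (Gk_kap hl) (Gx_kap hl) hz

end
end Cfsg.Agent.H780.P9
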