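import Cfsg.Agent.H780.P9.Gauge

/-!
# S5925, box H: normal forms of the search under the gauge group (helper780)
-/

set_option autoImplicit false
set_option linter.style.longLine false

namespace Cfsg.Agent.H780.P9
open Matrix Cfsg.Agent.H879.E83

section
variable {F : Type*} [Field F] {g : F} {q : Mt F}

theorem g8 (hg : g ^ 4 = 1 - g) (h3 : (3 : F) = 0) : g ^ 8 = 1 + g + g ^ 2 := by
  linear_combination (g ^ 4 + 1 - g) * hg - g * h3

theorem g10 (hg : g ^ 4 = 1 - g) (h3 : (3 : F) = 0) : g ^ 10 = 1 - g + g ^ 2 + g ^ 3 := by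
  linear_combination g ^ 2 * g8 hg h3 + hg

theorem g20 (hg : g ^ 4 = 1 - g) (h3 : (3 : F) = 0) : g ^ 20 = g ^ 10 * (1 - g + g ^ 2 + g ^ 3) := by
  linear_combination g ^ 10 * g10 hg h3

theorem two_ne (h3 : (3 : F) = 0) : (2 : F) ≠ 0 := by
  intro h
  exact one_ne_zero (α := F) (by linear_combination h3 - h)

theorem g40 (hg : g ^ 4 = 1 - g) (h3 : (3 : F) = 0) : g ^ 40 = -1 := by
  linear_combination ((-1)*g^0 + (-1)*g^1 + (-1)*g^2 + (-1)*g^3 + (1)*g^4 + (-1)*g^6 + (1)*g^7 + (-1)*g^8 + (-1)*g^9 + (1)*g^10 + (-1)*g^11 + (1)*g^12 + (1)*g^14 + (1)*g^16 + (1)*g^17 + (-1)*g^18 + (-1)*g^19 + (1)*g^21 + (-1)*g^23 + (-1)*g^24 + (-1)*g^27 + (1)*g^28 + (1)*g^29 + (1)*g^30 + (1)*g^32 + (-1)*g^33 + (1)*g^36) * hg + ((1)*g^4 + (1)*g^7 + (-1)*g^8 + (1)*g^10 + (-1)*g^11 + (1)*g^12 + (-1)*g^18 + (1)*g^28 + (-1)*g^33) * h3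

theorem prim (hg : g ^ 4 = 1 - g) (h3 : (3 : F) = 0) : IsPrimitiveRoot g 80 := by
  rw [IsPrimitiveRoot.iff_orderOf]
  refine orderOf_eq_of_pow_and_pow_div_prime (by norm_num) (g80 hg h3) ?_
  intro p hp hd
  have hp' : p = 2 ∨ p = 5 := by
    have h1 : p ∣ 2 ^ 4 * 5 := by simpa using hd
    rcases (Nat.Prime.dvd_mul hp).1 h1 with h2 | h2
    · left; exact (Nat.prime_dvd_prime_iff_eq hp Nat.prime_two).1 (hp.dvd_of_dvd_pow h2)
    · right; exact (Nat.prime_dvd_prime_iff_eq hp Nat.prime_five).1 h2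
  rcases hp' with rfl | rfl
  · show g ^ 40 ≠ 1
    rw [g40 hg h3]
    intro h
    exact two_ne h3 (by linear_combination -h)
  · show g ^ 16 ≠ 1
    intro h
    have e := ch_sum hg h3 1 (by decide)
    have e1 : ∀ a : Fin 5, ch g 1 a = (g ^ 16) ^ (a : ℕ) := by
      intro a
      rw [ch, one_mul, pow_mul]
    simp only [e1, h, one_pow, Finset.sum_const, Finset.card_univ, Fintype.card_fin, nsmul_eq_mul, mul_one] at e
    push_cast at e
    exact two_ne h3 (by linear_combination e - h3)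

theorem exists_pow (hg : g ^ 4 = 1 - g) (h3 : (3 : F) = 0) {x : F} (hx : x ^ 81 = x) (h0 : x ≠ 0) : ∃ n < 80, x = g ^ n := by
  have h1 : x ^ 80 = 1 := by
    have e : x * x ^ 80 = x * 1 := by rw [mul_one, ← pow_succ']; exact hx
    exact mul_left_cancel₀ h0 e
  obtain ⟨n, hn, e⟩ := (prim hg h3).eq_pow_of_pow_eq_one h1
  exact ⟨n, hn, e.symm⟩

theorem pow80_of {x : F} (hx : x ^ 81 = x) (h0 : x ≠ 0) : x ^ 80 = 1 := by
  have e : x * x ^ 80 = x * 1 := by rw [mul_one, ← pow_succ']; exact hx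
  exact mul_left_cancel₀ h0 e

/-- every value of the norm has a normalised root -/
theorem exists_z (hg : g ^ 4 = 1 - g) (h3 : (3 : F) = 0) {x : F} (hx : x ^ 81 = x) (h0 : x ≠ 0) :
    ∃ z : F, z ^ 10 = 1 ∧ ∃ n < 8, z * x = g ^ n := by
  obtain ⟨n, hn, rfl⟩ := exists_pow hg h3 hx h0
  refine ⟨g ^ (80 - 8 * (n / 8)), ?_, n % 8, Nat.mod_lt _ (by norm_num), ?_⟩
  · rw [← pow_mul]
    have e : (80 - 8 * (n / 8)) * 10 = 80 * (10 - n / 8) := by omega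
    rw [e, pow_mul, g80 hg h3, one_pow]
  · rw [← pow_add]
    have e : 80 - 8 * (n / 8) + n = 80 + n % 8 := by omega
    rw [e, pow_add, g80 hg h3, one_mul]

/-- ninth roots are unique and exist -/
theorem nine_root {x : F} (hx : x ^ 81 = x) : (x ^ 9) ^ 9 = x := by rw [← pow_mul]; exact hx

/-- normalisation by `l` -/
theorem exists_l {x y : F} (hx : x ^ 81 = x) (hy : y ^ 81 = y) :
    ∃ l : F, l ^ 80 = 1 ∧ (l * x = 1 ∨ (l * x = 0 ∧ l ^ 71 * y = 1) ∨ (l * x = 0 ∧ l ^ 71 * y = 0)) := by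
  by_cases h0 : x = 0
  · subst h0
    by_cases h1 : y = 0
    · subst h1
      exact ⟨1, one_pow _, Or.inr (Or.inr ⟨by ring, by ring⟩)⟩
    · have hy80 := pow80_of hy h1
      -- `l ^ 71 * y = 1` : `l ^ 9 = y`, `l = y ^ 9`
      refine ⟨y ^ 9, ?_, Or.inr (Or.inl ⟨by ring, ?_⟩)⟩
      · calc (y ^ 9) ^ 80 = (y ^ 80) ^ 9 := by ring
          _ = 1 := by rw [hy80, one_pow]
      · calc (y ^ 9) ^ 71 * y = (y ^ 80) ^ 8 := by ring
          _ = 1 := by rw [hy80, one_pow]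
  · have hx80 := pow80_of hx h0
    refine ⟨x ^ 79, ?_, Or.inl ?_⟩
    · calc (x ^ 79) ^ 80 = (x ^ 80) ^ 79 := by ring
        _ = 1 := by rw [hx80, one_pow]
    · rw [← pow_succ]; exact hx80

theorem gau_apply (z : F) (k : Fin 5 → F) (q : Mt F) (a b : Fin 5) : gau z k q a b = z * k a * k b * q a b := rfl

/-- **first normal form** : up to `z κ(l) q κ(l)`,
`q11 ∈ {0, g^0, …, g^7}` and `(q01, q12) ∈ {(1,*), (0,1), (0,0)}` -/
theorem _root_.Cfsg.Agent.H879.E83.PNine.nf (h : PNine g q) (hg : g ^ 4 = 1 - g) (h3 : (3 : F) = 0) :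
    ∃ z l : F, z ^ 10 = 1 ∧ l ^ 80 = 1 ∧ PNine g (gau z (kap l) q) ∧
      (gau z (kap l) q 1 1 = 0 ∨ ∃ n < 8, gau z (kap l) q 1 1 = g ^ n) ∧
      (gau z (kap l) q 0 1 = 1 ∨ (gau z (kap l) q 0 1 = 0 ∧ gau z (kap l) q 1 2 = 1) ∨
        (gau z (kap l) q 0 1 = 0 ∧ gau z (kap l) q 1 2 = 0)) := by
  obtain ⟨z, hz, hz1⟩ : ∃ z : F, z ^ 10 = 1 ∧ (z * q 1 1 = 0 ∨ ∃ n < 8, z * q 1 1 = g ^ n) := by
    by_cases h0 : q 1 1 = 0
    · exact ⟨1, one_pow _, Or.inl (by rw [h0, mul_zero])⟩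
    · obtain ⟨z, hz, hz1⟩ := exists_z hg h3 (h.pow81 1 1) h0
      exact ⟨z, hz, Or.inr hz1⟩
  have hz80 : z ^ 80 = 1 := by
    calc z ^ 80 = (z ^ 10) ^ 8 := by ring
      _ = 1 := by rw [hz, one_pow]
  have p1 : ∀ a b, (z * q a b) ^ 81 = z * q a b := by
    intro a b
    calc (z * q a b) ^ 81 = z ^ 80 * z * q a b ^ 81 := by ring
      _ = z * q a b := by rw [hz80, h.pow81, one_mul]
  obtain ⟨l, hl, hl1⟩ := exists_l (p1 0 1) (p1 1 2)
  have e11 : gau z (kap l) q 1 1 = z * q 1 1 := by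
    change z * 1 * 1 * q 1 1 = _; ring
  have e01 : gau z (kap l) q 0 1 = l * (z * q 0 1) := by
    change z * l * 1 * q 0 1 = _; ring
  have e12 : gau z (kap l) q 1 2 = l ^ 71 * (z * q 1 2) := by
    change z * 1 * l ^ 71 * q 1 2 = _; ring
  refine ⟨z, l, hz, hl, h.gauge_kap hl hz, ?_, ?_⟩
  · rw [e11]; exact hz1
  · rw [e01, e12]; exact hl1

/-- **second normal form**: `(q13, q14)` by `τ(m)` -/
theorem PFour.nf_tau (h : PFour g q) : ∃ m : F, m ^ 80 = 1 ∧ PFour g (gau 1 (tau m) q) ∧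
      (gau 1 (tau m) q 1 3 = 1 ∨ (gau 1 (tau m) q 1 3 = 0 ∧ gau 1 (tau m) q 1 4 = 1) ∨
        (gau 1 (tau m) q 1 3 = 0 ∧ gau 1 (tau m) q 1 4 = 0)) := by
  obtain ⟨m, hm, hm1⟩ := exists_l (h.pow81 1 3) (h.pow81 1 4)
  have e13 : gau 1 (tau m) q 1 3 = m * q 1 3 := by
    change 1 * 1 * m * q 1 3 = _; ring
  have e14 : gau 1 (tau m) q 1 4 = m ^ 71 * q 1 4 := by
    change 1 * 1 * m ^ 71 * q 1 4 = _; ring
  refine ⟨m, hm, h.gauge (Gk_tau hm) (one_pow _), ?_⟩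
  rw [e13, e14]; exact hm1

end
end Cfsg.Agent.H780.P9
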