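import Cfsg.Agent.H780.P9.Iface

/-!
# S5925, box H: the top of the plan (helper780)
-/

set_option autoImplicit false
set_option linter.style.longLine false

namespace Cfsg.Agent.H780.P9
open Matrix Cfsg.Agent.H879.E83

section
variable {F : Type*} [Field F] {g : F} {q p : Mt F} {m : F} {t : Fin 10 → F}

theorem QQ_gau {k : Fin 5 → F} {z : F} (hk : Gk k) (hz : z ^ 10 = 1) (q : Mt F) (a b : Fin 5) :
    QQ (gau z k q) a b = QQ q a b := by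
  have e1 : k (sgm a) ^ 9 * k a = 1 := hk a
  have e2 : k (sgm b) ^ 9 * k b = 1 := hk b
  rw [QQ, QQ, gau, gau]
  calc z * k a * k b * q a b * (z * k (sgm a) * k (sgm b) * q (sgm a) (sgm b)) ^ 9
      = z ^ 10 * (k (sgm a) ^ 9 * k a) * (k (sgm b) ^ 9 * k b) * (q a b * q (sgm a) (sgm b) ^ 9) := by ring
    _ = _ := by rw [hz, e1, e2]; ring

theorem Ctx.tau (c : Ctx g q q 1 t) {m : F} (hm : m ^ 80 = 1) : Ctx g q (gau 1 (tau m) q) m t where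
  hg := c.hg
  h3 := c.h3
  nine := c.nine
  m80 := hm
  hp := rfl
  tr := c.tr
  Q01 := by rw [QQ_gau (Gk_tau hm) (one_pow _)]; exact c.Q01
  Q13 := by rw [QQ_gau (Gk_tau hm) (one_pow _)]; exact c.Q13
  Q11 := by rw [QQ_gau (Gk_tau hm) (one_pow _)]; exact c.Q11
  Q02 := by rw [QQ_gau (Gk_tau hm) (one_pow _)]; exact c.Q02
  Q00 := by rw [QQ_gau (Gk_tau hm) (one_pow _)]; exact c.Q00
  Q03 := by rw [QQ_gau (Gk_tau hm) (one_pow _)]; exact c.Q03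
  Q04 := by rw [QQ_gau (Gk_tau hm) (one_pow _)]; exact c.Q04
  Q33 := by rw [QQ_gau (Gk_tau hm) (one_pow _)]; exact c.Q33
  Q34 := by rw [QQ_gau (Gk_tau hm) (one_pow _)]; exact c.Q34

/-- scalars 0 .. 13 -/
def K14 (g : F) (p : Mt F) (t : Fin 10 → F) : List F :=
  [t 0, t 1, t 2, t 3, t 4, t 5, t 6, QQ p 0 1, QQ p 1 3, QQ p 1 1, B02 t, B00 g t, B03 g t, B04 g t]

/-- scalars 0 .. 16 -/
def K17 (g : F) (p : Mt F) (t : Fin 10 → F) : List F :=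
  [t 0, t 1, t 2, t 3, t 4, t 5, t 6, QQ p 0 1, QQ p 1 3, QQ p 1 1, B02 t, B00 g t, B03 g t, B04 g t,
   p 1 1, p 0 1, p 1 2]

/-- scalars 0 .. 18 -/
def K19 (g : F) (p : Mt F) (t : Fin 10 → F) : List F :=
  [t 0, t 1, t 2, t 3, t 4, t 5, t 6, QQ p 0 1, QQ p 1 3, QQ p 1 1, B02 t, B00 g t, B03 g t, B04 g t,
   p 1 1, p 0 1, p 1 2, p 1 3, p 1 4]

theorem K17_tau {m : F} (hm : m ^ 80 = 1) : K17 g (gau 1 (tau m) q) t = K17 g q t := by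
  have e11 : gau 1 (tau m) q 1 1 = q 1 1 := by change 1 * 1 * 1 * q 1 1 = _; ring
  have e01 : gau 1 (tau m) q 0 1 = q 0 1 := by change 1 * 1 * 1 * q 0 1 = _; ring
  have e12 : gau 1 (tau m) q 1 2 = q 1 2 := by change 1 * 1 * 1 * q 1 2 = _; ring
  simp only [K17, QQ_gau (Gk_tau hm) (one_pow _), e11, e01, e12]

theorem nine9 {x : F} (hx : x ^ 81 = x) : ((x ^ 9) ^ 3) ^ 3 = x := by
  rw [← pow_mul, ← pow_mul]; exact hx

/-- the block `(q13, q14)` -/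
theorem wp_br (c : Ctx g q q 1 t) {b1 a b2 b3 : Plan}
    (ha : ∀ p m, Ctx g q p m t → p 1 3 = 1 → p 1 4 ≠ 0 → WP g (Sol g q) a (K19 g p t) [])
    (hb1 : ∀ p m, Ctx g q p m t → p 1 3 = 1 → p 1 4 = 0 → WP g (Sol g q) b1 (K19 g p t) [])
    (hb2 : ∀ p m, Ctx g q p m t → p 1 3 = 0 → p 1 4 = 1 → WP g (Sol g q) b2 (K19 g p t) [])
    (hb3 : q 1 3 = 0 → q 1 4 = 0 → WP g (Sol g q) b3 (K19 g q t) []) :
    WP g (Sol g q) (.or (.kf (.pw 0) (.kf (.fr (.fr (.k 8))) (.ksp (.k 8) b1 a)))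
      (.kfl [(.k 8)] (.or (.kf .zero (.kf (.pw 0) b2)) (.kf .zero (.kf .zero b3))))) (K17 g q t) [] := by
  obtain ⟨m, hm, _, h⟩ := c.four.nf_tau
  have c' := c.tau hm
  have s1 : sgm (1 : Fin 5) = 1 := by decide
  have s3 : sgm (3 : Fin 5) = 4 := by decide
  rw [← K17_tau hm]
  set p := gau 1 (tau m) q with hp
  have hQ : QQ p 1 3 = p 1 3 * p 1 4 ^ 9 := by rw [QQ, s1, s3]
  rcases h with h | ⟨h, h'⟩ | ⟨h, h'⟩
  · refine WP_or_left (WP_kf (x := p 1 3) ?_ (WP_kf (x := p 1 4) ?_ (WP_ksp ?_ ?_)))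
    · rw [h]; exact pow_zero g
    · show (QQ p 1 3 ^ 3) ^ 3 = p 1 4
      rw [hQ, h, one_mul, nine9 (c'.p81 1 4)]
    · intro e
      have e' : QQ p 1 3 = 0 := e
      rw [hQ, h, one_mul] at e'
      exact hb1 p m c' h (eq_zero_of_pow_eq_zero e')
    · intro e
      have e' : QQ p 1 3 ≠ 0 := e
      rw [hQ, h, one_mul] at e'
      refine ha p m c' h fun h0 => e' ?_
      rw [h0]; ring
  · refine WP_or_right (WP_kfl ?_ (WP_or_left (WP_kf (x := p 1 3) ?_ (WP_kf (x := p 1 4) ?_ (hb2 p m c' h h')))))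
    · intro e he
      rw [List.mem_singleton] at he
      subst he
      show QQ p 1 3 = 0
      rw [hQ, h, zero_mul]
    · rw [h]; rfl
    · rw [h']; exact pow_zero g
  · have e13 : p 1 3 = m * q 1 3 := by change 1 * 1 * m * q 1 3 = _; ring
    have e14 : p 1 4 = m ^ 71 * q 1 4 := by change 1 * 1 * m ^ 71 * q 1 4 = _; ring
    have hm0 : m ≠ 0 := ne_of_pow80 hm
    have h13 : q 1 3 = 0 := by
      rw [e13] at h
      exact (mul_eq_zero.1 h).resolve_left hm0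
    have h14 : q 1 4 = 0 := by
      rw [e14] at h'
      exact (mul_eq_zero.1 h').resolve_left (pow_ne_zero _ hm0)
    rw [K17_tau hm]
    refine WP_or_right (WP_kfl ?_ (WP_or_right (WP_kf (x := q 1 3) ?_ (WP_kf (x := q 1 4) ?_ (hb3 h13 h14)))))
    · intro e he
      rw [List.mem_singleton] at he
      subst he
      show QQ q 1 3 = 0
      rw [QQ, h13, zero_mul]
    · rw [h13]; rfl
    · rw [h14]; rfl

/-- normal form of the branch `q01 = q12 = 0` -/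
def NB (g : F) (q : Mt F) : Prop :=
  (∃ i < 4, q 1 3 = g ^ i) ∨ (q 1 3 = 0 ∧ ∃ i < 4, q 1 4 = g ^ i) ∨ (q 1 3 = 0 ∧ q 1 4 = 0 ∧ NZ g q)

/-- all the continuations -/
structure Conts (g : F) (q : Mt F) (t : Fin 10 → F) : Prop where
  a : ∀ p m, Ctx g q p m t → p 1 3 = 1 → p 1 4 ≠ 0 → WP g (Sol g q) plCa (K19 g p t) []
  b1 : ∀ p m, Ctx g q p m t → p 1 3 = 1 → p 1 4 = 0 → WP g (Sol g q) plCb1 (K19 g p t) []
  b2 : ∀ p m, Ctx g q p m t → p 1 3 = 0 → p 1 4 = 1 → WP g (Sol g q) plCb2 (K19 g p t) []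
  b3 : q 1 3 = 0 → q 1 4 = 0 → WP g (Sol g q) plCb3 (K19 g q t) []
  a0 : ∀ p m, Ctx g q p m t → p 1 3 = 1 → p 1 4 ≠ 0 → (∃ i < 4, q 1 3 = g ^ i) → WP g (Sol g q) plCa0 (K19 g p t) []
  b10 : ∀ p m, Ctx g q p m t → p 1 3 = 1 → p 1 4 = 0 → (∃ i < 4, q 1 3 = g ^ i) → WP g (Sol g q) plCb10 (K19 g p t) []
  b20 : ∀ p m, Ctx g q p m t → p 1 3 = 0 → p 1 4 = 1 → (∃ i < 4, q 1 4 = g ^ i) → WP g (Sol g q) plCb20 (K19 g p t) []
  z : q 0 1 = 0 → q 1 2 = 0 → q 1 3 = 0 → q 1 4 = 0 → NZ g q → WP g (Sol g q) plCz (K19 g q t) []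

theorem wp_Br (c : Ctx g q q 1 t) (h : Conts g q t) : WP g (Sol g q) plBr (K17 g q t) [] :=
  wp_br c h.a h.b1 h.b2 h.b3

theorem Ctx.ne13 (c : Ctx g q p m t) (h : p 1 3 ≠ 0) : q 1 3 ≠ 0 := fun h0 => h (by rw [c.papp, h0, mul_zero])
theorem Ctx.ne14 (c : Ctx g q p m t) (h : p 1 4 ≠ 0) : q 1 4 ≠ 0 := fun h0 => h (by rw [c.papp, h0, mul_zero])

theorem NB.c13 (h : NB g q) (h0 : q 1 3 ≠ 0) : ∃ i < 4, q 1 3 = g ^ i := by
  rcases h with h | ⟨h, _⟩ | ⟨h, _⟩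
  · exact h
  · exact absurd h h0
  · exact absurd h h0

theorem NB.c14 (h : NB g q) (hg : g ≠ 0) (h3 : q 1 3 = 0) (h0 : q 1 4 ≠ 0) : ∃ i < 4, q 1 4 = g ^ i := by
  rcases h with ⟨i, _, h⟩ | ⟨_, h⟩ | ⟨_, h, _⟩
  · exact absurd (h.symm.trans h3) (pow_ne_zero _ hg)
  · exact h
  · exact absurd h h0

theorem NB.cz (h : NB g q) (hg : g ≠ 0) (h3 : q 1 3 = 0) (h4 : q 1 4 = 0) : NZ g q := by
  rcases h with ⟨i, _, h⟩ | ⟨_, i, _, h⟩ | ⟨_, _, h⟩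
  · exact absurd (h.symm.trans h3) (pow_ne_zero _ hg)
  · exact absurd (h.symm.trans h4) (pow_ne_zero _ hg)
  · exact h

theorem wp_Br0 (c : Ctx g q q 1 t) (h : Conts g q t) (h01 : q 0 1 = 0) (h12 : q 1 2 = 0) (hb : NB g q) :
    WP g (Sol g q) plBr0 (K17 g q t) [] := by
  have hg0 : g ≠ 0 := g_ne c.hg
  refine wp_br c (fun p m c' h13 h14 => h.a0 p m c' h13 h14 (hb.c13 (c'.ne13 ?_)))
    (fun p m c' h13 h14 => h.b10 p m c' h13 h14 (hb.c13 (c'.ne13 ?_)))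
    (fun p m c' h13 h14 => h.b20 p m c' h13 h14 (hb.c14 hg0 ?_ (c'.ne14 ?_)))
    (fun h13 h14 => h.z h01 h12 h13 h14 (hb.cz hg0 h13 h14))
  · rw [h13]; exact one_ne_zero
  · rw [h13]; exact one_ne_zero
  · have e := c'.papp 1 3
    rw [h13] at e
    have n1 : tau m 1 = 1 := rfl
    have n3 : tau m 3 = m := rfl
    rw [n1, n3, one_mul] at e
    exact (mul_eq_zero.1 e.symm).resolve_left (ne_of_pow80 c'.m80)
  · rw [h14]; exact one_ne_zero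

/-- scalars 0 .. 14 -/
def K15 (g : F) (p : Mt F) (t : Fin 10 → F) : List F :=
  [t 0, t 1, t 2, t 3, t 4, t 5, t 6, QQ p 0 1, QQ p 1 3, QQ p 1 1, B02 t, B00 g t, B03 g t, B04 g t, p 1 1]

theorem wp_R1 (c : Ctx g q q 1 t) (h : Conts g q t)
    (hn : q 0 1 = 1 ∨ (q 0 1 = 0 ∧ q 1 2 = 1) ∨ (q 0 1 = 0 ∧ q 1 2 = 0 ∧ NB g q)) :
    WP g (Sol g q) plR1 (K15 g q t) [] := by
  have s0 : sgm (0 : Fin 5) = 2 := by decide
  have s1 : sgm (1 : Fin 5) = 1 := by decide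
  have hQ : QQ q 0 1 = q 0 1 * q 1 2 ^ 9 := by rw [QQ, s0, s1, c.sym 2 1]
  rcases hn with h01 | ⟨h01, h12⟩ | ⟨h01, h12, hb⟩
  · refine WP_or_left (WP_kf (x := q 0 1) ?_ (WP_kf (x := q 1 2) ?_ (wp_Br c h)))
    · rw [h01]; exact pow_zero g
    · show (QQ q 0 1 ^ 3) ^ 3 = q 1 2
      rw [hQ, h01, one_mul, nine9 (c.p81 1 2)]
  · refine WP_or_right (WP_kfl ?_ (WP_or_left (WP_kf (x := q 0 1) ?_ (WP_kf (x := q 1 2) ?_ (wp_Br c h)))))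
    · intro e he
      rw [List.mem_singleton] at he
      subst he
      show QQ q 0 1 = 0
      rw [hQ, h01, zero_mul]
    · rw [h01]; rfl
    · rw [h12]; exact pow_zero g
  · refine WP_or_right (WP_kfl ?_ (WP_or_right (WP_kf (x := q 0 1) ?_ (WP_kf (x := q 1 2) ?_ (wp_Br0 c h h01 h12 hb)))))
    · intro e he
      rw [List.mem_singleton] at he
      subst he
      show QQ q 0 1 = 0
      rw [hQ, h01, zero_mul]
    · rw [h01]; rfl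
    · rw [h12]; rfl

theorem wp_plan (c : Ctx g q q 1 t) (h : Conts g q t)
    (h11 : q 1 1 = 0 ∨ ∃ n < 8, q 1 1 = g ^ n)
    (hn : q 0 1 = 1 ∨ (q 0 1 = 0 ∧ q 1 2 = 1) ∨ (q 0 1 = 0 ∧ q 1 2 = 0 ∧ NB g q)) :
    WP g (Sol g q) plan [t 0, t 1, t 2, t 3, t 4, t 5, t 6] [] := by
  have s1 : sgm (1 : Fin 5) = 1 := by decide
  refine WP_kf (x := QQ q 0 1) ?_ (WP_kf (x := QQ q 1 3) ?_ (WP_kf (x := QQ q 1 1) ?_ (WP_kf (x := B02 t) ?_
    (WP_kf (x := B00 g t) ?_ (WP_kf (x := B03 g t) ?_ (WP_kf (x := B04 g t) ?_ ?_))))))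
  · rw [c.Q01]
    show g ^ 0 + t 0 + g ^ 1 * t 1 + g ^ 2 * t 2 + g ^ 3 * t 3 = _
    ring
  · rw [c.Q13]
    show -(g ^ 0 + t 4 + g ^ 25 * t 5 + g ^ 55 * t 6) = _
    ring
  · rw [c.Q11]
    rfl
  · show g ^ 0 + t 4 = _
    rw [B02]; ring
  · rfl
  · show g ^ 0 + g ^ 45 * t 5 + g ^ 25 * t 6 = _
    rw [B03]; ring
  · show g ^ 0 + g ^ 40 * t 0 + g ^ 43 * t 1 + g ^ 46 * t 2 + g ^ 49 * t 3 + t 4 + g ^ 5 * t 5 + g ^ 65 * t 6 = _
    rw [B04]; ring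
  have fin : WP g (Sol g q) (.kfl [(.sub (.mul (.k 14) (.fr (.fr (.k 14)))) (.k 9))] plR1) (K15 g q t) [] := by
    refine WP_kfl ?_ (wp_R1 c h hn)
    intro e he
    rw [List.mem_singleton] at he
    subst he
    show q 1 1 * (q 1 1 ^ 3) ^ 3 - QQ q 1 1 = 0
    rw [QQ, s1]; ring
  rcases h11 with h0 | ⟨n, hn8, h0⟩
  · exact WP_alt (x := q 1 1) .zero (by simp) (by rw [h0]; rfl) fin
  · refine WP_alt (x := q 1 1) (.pw n) ?_ (by rw [h0]; rfl) fin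
    interval_cases n <;> simp

/-! ### the normal form of the branch `q01 = q12 = 0` -/

theorem exists_le (hg : g ^ 4 = 1 - g) (h3 : (3 : F) = 0) {e d : ℕ}
    (H : ∀ n < 80, ∃ j < 80, (e * j + n) % 80 < d) {x : F} (hx : x ^ 81 = x) (h0 : x ≠ 0) :
    ∃ l : F, l ^ 80 = 1 ∧ ∃ i < d, l ^ e * x = g ^ i := by
  obtain ⟨n, hn, rfl⟩ := exists_pow hg h3 hx h0
  obtain ⟨j, _, hj⟩ := H n hn
  refine ⟨g ^ j, ?_, (e * j + n) % 80, hj, ?_⟩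
  · rw [← pow_mul, mul_comm, pow_mul, g80 hg h3, one_pow]
  · rw [← pow_mul, ← pow_add, mul_comm j e]
    exact pow_mod80 (g80 hg h3) (Nat.mod_mod _ _).symm

theorem H44 : ∀ n < 80, ∃ j < 80, (44 * j + n) % 80 < 4 := by decide +kernel
theorem H4 : ∀ n < 80, ∃ j < 80, (4 * j + n) % 80 < 4 := by decide +kernel
theorem H5 : ∀ n < 80, ∃ j < 80, (5 * j + n) % 80 < 5 := by decide +kernel
theorem H115 : ∀ n < 80, ∃ j < 80, (115 * j + n) % 80 < 5 := by decide +kernel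
theorem H45 : ∀ n < 80, ∃ j < 80, (45 * j + n) % 80 < 5 := by decide +kernel
theorem H75 : ∀ n < 80, ∃ j < 80, (75 * j + n) % 80 < 5 := by decide +kernel

theorem gk (q : Mt F) (l : F) (a b : Fin 5) : gau 1 (kap l) q a b = l ^ (ke a + ke b) * q a b := by
  rw [gau_apply, kap_eq, kap_eq, one_mul, pow_add]

theorem exists_NB (h : PNine g q) (hg : g ^ 4 = 1 - g) (h3 : (3 : F) = 0) :
    ∃ l : F, l ^ 80 = 1 ∧ NB g (gau 1 (kap l) q) := by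
  have z : ∀ (l : F) (a b : Fin 5), q a b = 0 → gau 1 (kap l) q a b = 0 := fun l a b h => by rw [gk, h, mul_zero]
  by_cases h13 : q 1 3 = 0
  · by_cases h14 : q 1 4 = 0
    · by_cases h04 : q 0 4 = 0
      · by_cases h23 : q 2 3 = 0
        · by_cases h03 : q 0 3 = 0
          · by_cases h24 : q 2 4 = 0
            · exact ⟨1, one_pow _, Or.inr (Or.inr ⟨z _ _ _ h13, z _ _ _ h14, Or.inr (Or.inr (Or.inr
                ⟨z _ _ _ h04, z _ _ _ h23, z _ _ _ h03, Or.inl (z _ _ _ h24)⟩))⟩)⟩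
            · obtain ⟨l, hl, i, hi, e⟩ := exists_le hg h3 H75 (h.pow81 2 4) h24
              exact ⟨l, hl, Or.inr (Or.inr ⟨z _ _ _ h13, z _ _ _ h14, Or.inr (Or.inr (Or.inr
                ⟨z _ _ _ h04, z _ _ _ h23, z _ _ _ h03, Or.inr ⟨i, hi, (gk q l 2 4).trans e⟩⟩))⟩)⟩
          · obtain ⟨l, hl, i, hi, e⟩ := exists_le hg h3 H45 (h.pow81 0 3) h03
            exact ⟨l, hl, Or.inr (Or.inr ⟨z _ _ _ h13, z _ _ _ h14, Or.inr (Or.inr (Or.inl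
                ⟨z _ _ _ h04, z _ _ _ h23, i, hi, (gk q l 0 3).trans e⟩))⟩)⟩
        · obtain ⟨l, hl, i, hi, e⟩ := exists_le hg h3 H115 (h.pow81 2 3) h23
          exact ⟨l, hl, Or.inr (Or.inr ⟨z _ _ _ h13, z _ _ _ h14, Or.inr (Or.inl
                ⟨z _ _ _ h04, i, hi, (gk q l 2 3).trans e⟩)⟩)⟩
      · obtain ⟨l, hl, i, hi, e⟩ := exists_le hg h3 H5 (h.pow81 0 4) h04
        exact ⟨l, hl, Or.inr (Or.inr ⟨z _ _ _ h13, z _ _ _ h14, Or.inl ⟨i, hi, (gk q l 0 4).trans e⟩⟩)⟩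
    · obtain ⟨l, hl, i, hi, e⟩ := exists_le hg h3 H4 (h.pow81 1 4) h14
      exact ⟨l, hl, Or.inr (Or.inl ⟨z _ _ _ h13, i, hi, (gk q l 1 4).trans e⟩)⟩
  · obtain ⟨l, hl, i, hi, e⟩ := exists_le hg h3 H44 (h.pow81 1 3) h13
    exact ⟨l, hl, Or.inl ⟨i, hi, (gk q l 1 3).trans e⟩⟩

theorem gau_gau (z : F) (l l' : F) (q : Mt F) : gau 1 (kap l') (gau z (kap l) q) = gau z (kap (l * l')) q := by
  funext a b
  simp only [gau_apply, kap_eq, mul_pow]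
  ring

/-- **the full normal form** -/
theorem nf_full (h : PNine g q) (hg : g ^ 4 = 1 - g) (h3 : (3 : F) = 0) :
    ∃ z l : F, z ^ 10 = 1 ∧ l ^ 80 = 1 ∧ PNine g (gau z (kap l) q) ∧
      (gau z (kap l) q 1 1 = 0 ∨ ∃ n < 8, gau z (kap l) q 1 1 = g ^ n) ∧
      (gau z (kap l) q 0 1 = 1 ∨ (gau z (kap l) q 0 1 = 0 ∧ gau z (kap l) q 1 2 = 1) ∨
        (gau z (kap l) q 0 1 = 0 ∧ gau z (kap l) q 1 2 = 0 ∧ NB g (gau z (kap l) q))) := by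
  obtain ⟨z, l, hz, hl, hn, h11, h01⟩ := h.nf hg h3
  rcases h01 with h01 | h01 | ⟨h01, h12⟩
  · exact ⟨z, l, hz, hl, hn, h11, Or.inl h01⟩
  · exact ⟨z, l, hz, hl, hn, h11, Or.inr (Or.inl h01)⟩
  · obtain ⟨l', hl', hb⟩ := exists_NB hn hg h3
    have hn' := hn.gauge_kap hl' (one_pow 10)
    have e11 : gau 1 (kap l') (gau z (kap l) q) 1 1 = gau z (kap l) q 1 1 := by
      rw [gk]
      have : ke 1 + ke 1 = 0 := rfl
      rw [this, pow_zero, one_mul]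
    have e01 : gau 1 (kap l') (gau z (kap l) q) 0 1 = 0 := by rw [gk, h01, mul_zero]
    have e12 : gau 1 (kap l') (gau z (kap l) q) 1 2 = 0 := by rw [gk, h12, mul_zero]
    rw [← e11] at h11
    rw [gau_gau] at hn' hb h11 e01 e12
    refine ⟨z, l * l', hz, by rw [mul_pow, hl, hl', one_mul], hn', h11, Or.inr (Or.inr ⟨e01, e12, hb⟩)⟩

end
end Cfsg.Agent.H780.P9
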